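import Cfsg.Agent.PLocalBasics.SL2Section

/-!
`SL(2,p)`-free groups are stable in the action sense.
-/

set_option autoImplicit false

namespace CfsgLib.PLocalBasics

open scoped commutatorElement

universe u

variable {p : ℕ} [hp : Fact p.Prime]

theorem isPStableOn_of_not_involves {G : Type u} [Group G] [Finite G] (hp2 : p ≠ 2)
    (h : ¬ Cfsg.Involves (Matrix.SpecialLinearGroup (Fin 2) (ZMod p)) G) (V : Subgroup G) [V.Normal]
    (hVp : IsPGroup p V) : Cfsg.IsPStableOn p V := by
  intro a hq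
  have hN : Subgroup.normalizer (V : Set G) = ⊤ := Subgroup.normalizer_eq_top _
  have hmem := CfsgLib.QdFree.isNormalizerPStable_of_sl2Free hp2 h V hVp a (hN.ge (Subgroup.mem_top a)) hq
  set N := Subgroup.normalizer (V : Set G)
  set C := Subgroup.centralizer (V : Set G)
  have hle : C.subgroupOf N ≤ C.comap N.subtype := le_rfl
  let θ : N ⧸ C.subgroupOf N →* G ⧸ C := QuotientGroup.map _ _ N.subtype hle
  have hθ : Function.Surjective θ := fun q => by
    obtain ⟨g, rfl⟩ := QuotientGroup.mk'_surjective C q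
    exact ⟨QuotientGroup.mk ⟨g, hN.ge (Subgroup.mem_top g)⟩, rfl⟩
  exact CfsgLib.PCore.map_pCore_le θ hθ ⟨_, hmem, rfl⟩

theorem isActionPStable_of_not_involves {G : Type u} [Group G] [Finite G] (hp2 : p ≠ 2)
    (h : ¬ Cfsg.Involves (Matrix.SpecialLinearGroup (Fin 2) (ZMod p)) G) : Cfsg.IsActionPStable p G := by
  refine ⟨fun V _ hV => isPStableOn_of_not_involves hp2 h V fun v => ⟨1, Subtype.ext (by simpa using hV.2 v v.2)⟩,
    ?_, fun S V _ hV => isPStableOn_of_not_involves hp2 (fun hi => h (CfsgLib.ZJ.involves_subgroup _ hi)) V ?_⟩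
  · intro a hq
    set K := Cfsg.pCore p G
    set N := (frattini ↥K).map K.subtype
    set π := QuotientGroup.mk' N
    haveI : (K.map π).Normal := Subgroup.Normal.map inferInstance π (QuotientGroup.mk'_surjective N)
    have hq' : ⁅⁅K.map π, Subgroup.zpowers (π a)⁆, Subgroup.zpowers (π a)⁆ = ⊥ := by
      rw [← MonoidHom.map_zpowers, ← Subgroup.map_commutator, ← Subgroup.map_commutator, Subgroup.map_eq_bot_iff,
        QuotientGroup.ker_mk']
      exact hq
    have hKp : IsPGroup p (K.map π) := (CfsgLib.PCore.isPGroup_pCore p G).map π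
    have hmem := isPStableOn_of_not_involves hp2 (fun hi => h (CfsgLib.ZJ.involves_quotient N hi)) (K.map π)
      hKp (π a) hq'
    set C := Subgroup.centralizer ((K.map π : Subgroup (G ⧸ N)) : Set (G ⧸ N))
    set ψ := (QuotientGroup.mk' C).comp π
    have hψ : Function.Surjective ψ := (QuotientGroup.mk'_surjective C).comp (QuotientGroup.mk'_surjective N)
    have hker : ψ.ker = Cfsg.sectionKernel K N := by
      rw [← MonoidHom.comap_ker, QuotientGroup.ker_mk']; rfl
    refine ⟨(Cfsg.pCore p ((G ⧸ N) ⧸ C)).comap ψ, inferInstance, ?_, ?_, hmem⟩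
    · rw [← hker, ← MonoidHom.comap_bot]; exact Subgroup.comap_mono bot_le
    · obtain ⟨k, hk⟩ := IsPGroup.iff_card.1 (CfsgLib.PCore.isPGroup_pCore p ((G ⧸ N) ⧸ C))
      refine ⟨k, ?_⟩
      rw [← hker, ← MonoidHom.comap_bot, Subgroup.relIndex_comap,
        Subgroup.map_comap_eq_self_of_surjective hψ, Subgroup.relIndex_bot_left, hk]
  · have hle : V.map (Subgroup.normalizer (Cfsg.thompsonSubgroupOf p (S : Subgroup G) : Set G)).subtype ≤
        (S : Subgroup G) := hV.trans (Subgroup.map_subtype_le _)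
    exact ((S.isPGroup'.to_le hle).of_equiv (V.equivMapOfInjective _ Subtype.val_injective).symm)

end CfsgLib.PLocalBasics

namespace CfsgLib.PLocalBasics

universe v

variable {p : ℕ} [Fact p.Prime]

theorem eq_three_of_lt {q : ℕ} (hq : q.Prime) (h2 : q ≠ 2) (h5 : ¬ 5 ≤ q) : q = 3 := by
  have := hq.two_le
  have h4 : q ≠ 4 := fun h => absurd (h ▸ hq) (by norm_num)
  omega

theorem sl2_three_section_of_pSolvable {G : Type v} [Group G] [Finite G] (hp2 : p ≠ 2) (V H : Subgroup G)
    (hV : Cfsg.IsElementaryAbelian p V) (hHV : H ≤ Subgroup.normalizer (V : Set G))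
    (hf : H ⊓ Subgroup.centralizer (V : Set G) = ⊥) (hsep : Cfsg.IsPSolvable p H) (a : G) (haH : a ∈ H)
    (hq : ⁅⁅V, Subgroup.zpowers a⁆, Subgroup.zpowers a⁆ = ⊥) (hna : a ∉ (Cfsg.pCore p H).map H.subtype) :
    p = 3 ∧ ∃ (K L : Subgroup G) (_ : (L.subgroupOf K).Normal), K ≤ H ∧
      Nonempty ((K ⧸ L.subgroupOf K) ≃* Matrix.SpecialLinearGroup (Fin 2) (ZMod 3)) := by
  have hi := involves_sl2_of_quadratic hp2 V H hV hHV hf a haH hq hna
  obtain rfl := eq_three_of_lt Fact.out hp2 fun h5 => not_involves_of_isPSolvable h5 hsep hi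
  exact ⟨rfl, exists_section_of_involves hi⟩

end CfsgLib.PLocalBasics
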