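import Cfsg.Agent.PLocalBasics.Regular

/-!
Powers in regular `p`-groups.
-/

set_option autoImplicit false

namespace CfsgLib.PLocalBasics

open scoped commutatorElement

variable {G : Type*} [Group G] [Finite G] {p : ℕ} [Fact p.Prime]

theorem regular_commutator_pow_mem (hR : Cfsg.IsRegularPGroup p G) {H : Subgroup G} {x y : G}
    (hx : x ∈ H) (hy : y ∈ H) (n : ℕ) :
    ⁅y, x ^ p ^ n⁆ ∈ Cfsg.powerClosure p n ⁅H, H⁆ := by
  have hxy : y * x * y⁻¹ ∈ H := mul_mem (mul_mem hy hx) (inv_mem hy)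
  obtain ⟨c, hc, he⟩ := hR.2 x⁻¹ (y * x * y⁻¹) n
  have hcM : c ∈ Cfsg.powerClosure p n ⁅H, H⁆ := powerClosure_mono (Subgroup.commutator_mono
    (pairGen_le (inv_mem hx) hxy) (pairGen_le (inv_mem hx) hxy)) n hc
  have hd : x⁻¹ * (y * x * y⁻¹) ∈ ⁅H, H⁆ := by
    have := Subgroup.commutator_mem_commutator (inv_mem hx) hy
    rwa [show ⁅x⁻¹, y⁆ = x⁻¹ * (y * x * y⁻¹) by rw [commutatorElement_def]; group] at this
  have h1 : (x ^ p ^ n)⁻¹ * (y * x ^ p ^ n * y⁻¹) ∈ Cfsg.powerClosure p n ⁅H, H⁆ := by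
    have := mul_mem (pow_mem_powerClosure (p := p) hd n) (inv_mem hcM)
    rwa [he, mul_inv_cancel_right, inv_pow, conj_pow] at this
  have := powerClosure_conj (pow_mem hx (p ^ n)) h1
  rwa [show x ^ p ^ n * ((x ^ p ^ n)⁻¹ * (y * x ^ p ^ n * y⁻¹)) * (x ^ p ^ n)⁻¹ = ⁅y, x ^ p ^ n⁆ by
    rw [commutatorElement_def]; group] at this

theorem regular_powers (hR : Cfsg.IsRegularPGroup p G) (H : Subgroup G) (n : ℕ) :
    {y : G | ∃ x ∈ H, y = x ^ (p ^ n)} = (Cfsg.powerClosure p n H : Set G) ∧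
      ⁅Cfsg.powerClosure p n H, Cfsg.powerClosure p n H⁆ ≤ Cfsg.powerClosure p n ⁅H, H⁆ := by
  have hC := step_of_regular hR
  refine ⟨Set.ext fun y => ⟨fun hy => Subgroup.subset_closure hy, mem_powerClosure_step hR.1 hC n H y⟩,
    Subgroup.commutator_le.2 fun u hu v hv => ?_⟩
  obtain ⟨b, hb, rfl⟩ := mem_powerClosure_step hR.1 hC n H v hv
  obtain ⟨a, ha, rfl⟩ := mem_powerClosure_step hR.1 hC n H u hu
  exact regular_commutator_pow_mem hR hb (pow_mem ha _) n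

end CfsgLib.PLocalBasics
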