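import Cfsg.Agent.PLocalBasics.NormalElemAbelian
import Cfsg.Agent.S0126
import Cfsg.Prelude.Def_PLocal
import Cfsg.Prelude.Def_OddOrderLocal

/-!
`p`-groups, `p > 3`, with at most `p²` elements of order dividing `p`.
-/

set_option autoImplicit false
set_option linter.style.haveILetI false

namespace CfsgLib.PLocalBasics

open scoped commutatorElement

universe u

variable {p : ℕ} [hp : Fact p.Prime]

theorem smallClass_of_card {W : Type*} [Group W] [Finite W] (hp3 : 3 < p) (hW : IsPGroup p W)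
    (hc : Nat.card W ≤ p ^ 4) : SmallClass p W := by
  refine Or.inr ⟨hp3, fun a b c => ?_⟩
  by_cases h2 : Nat.card W ≤ p ^ 2
  · haveI : IsMulCommutative W := by
      obtain ⟨k, hk⟩ := IsPGroup.iff_card.1 hW
      rw [hk, Nat.pow_le_pow_iff_right hp.out.one_lt] at h2
      interval_cases k
      · haveI : Subsingleton W := (Nat.card_eq_one_iff_unique.1 (by simpa using hk)).1
        exact ⟨⟨fun x y => Subsingleton.elim _ _⟩⟩
      · haveI := isCyclic_of_prime_card (hk.trans (pow_one p))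
        letI : CommGroup W := IsCyclic.commGroup
        exact ⟨⟨mul_comm⟩⟩
      · exact IsPGroup.isMulCommutative_of_card_eq_prime_sq hk
    rw [commutatorElement_eq_one_iff_mul_comm.2 (mul_comm' _ _)]
    exact one_mem _
  obtain ⟨k, hk⟩ := IsPGroup.iff_card.1 hW
  rw [hk, Nat.pow_le_pow_iff_right hp.out.one_lt] at h2
  rw [hk, Nat.pow_le_pow_iff_right hp.out.one_lt] at hc
  obtain ⟨M, hMn, -, hMc⟩ := exists_normal_card hW (N := ⊤) inferInstance (k - 2)
    (by rw [Subgroup.card_top, hk]; exact Nat.pow_le_pow_right hp.out.pos (by omega))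
  haveI := hMn
  have hq : Nat.card (W ⧸ M) = p ^ 2 := by
    have h1 := Subgroup.card_eq_card_quotient_mul_card_subgroup M
    rw [hk, hMc] at h1
    refine (Nat.eq_of_mul_eq_mul_right (pow_pos hp.out.pos (k - 2)) ?_).symm
    rw [← h1, ← pow_add]
    congr 1
    omega
  haveI := IsPGroup.isMulCommutative_of_card_eq_prime_sq hq
  have hbc : ⁅b, c⁆ ∈ M := (QuotientGroup.eq_one_iff _).1 (by
    show QuotientGroup.mk' M _ = 1
    rw [map_commutatorElement, commutatorElement_eq_one_iff_mul_comm]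
    exact mul_comm' _ _)
  obtain ⟨L, hLn, -, hLM, hLc⟩ := exists_central_step hW (inferInstance : (⊥ : Subgroup W).Normal) hMn
    (bot_lt_iff_ne_bot.2 fun h => by
      rw [h, Subgroup.card_bot] at hMc
      exact (Nat.one_lt_pow (by omega) hp.out.one_lt).ne hMc)
  refine le_center_of_card_le hW hLn ?_ ?_
  · obtain ⟨l, hl, hl'⟩ := (Nat.dvd_prime_pow hp.out).1 (hMc ▸ Subgroup.card_dvd_of_le hLM.le)
    rw [hl']
    refine (Nat.pow_le_pow_right hp.out.pos (show l ≤ 1 from ?_)).trans_eq (pow_one p)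
    by_contra hl1
    refine hLM.ne (Subgroup.eq_of_le_of_card_ge hLM.le ?_)
    rw [hMc, hl']
    exact Nat.pow_le_pow_right hp.out.pos (by omega)
  · have := inv_mem (hLc _ hbc a)
    rwa [commutatorElement_inv] at this

/-- `|Ω₁(R)| ≤ p²`. -/
def SmallOmega (p : ℕ) (R : Type*) [Group R] : Prop :=
  Nat.card ↥(Cfsg.omegaOne p (⊤ : Subgroup R)) ≤ p ^ 2

omit hp in
theorem SmallOmega.card_le {R : Type*} [Group R] [Finite R] (h : SmallOmega p R) {W : Subgroup R}
    (hW : ∀ x ∈ W, x ^ p = 1) : Nat.card W ≤ p ^ 2 :=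
  (Subgroup.card_le_of_le (show W ≤ Cfsg.omegaOne p (⊤ : Subgroup R) from fun x hx =>
    Subgroup.subset_closure ⟨Subgroup.mem_top x, hW x hx⟩)).trans h

theorem exists_exponent_subgroup {R : Type*} [Group R] [Finite R] (hR : IsPGroup p R) (hp3 : 3 < p)
    (hrk : ∀ E : Subgroup R, Cfsg.IsElementaryAbelian p E → Nat.card E ≤ p ^ 2) :
    ∀ x ∈ Cfsg.omegaOne p (⊤ : Subgroup R), x ^ p = 1 := by
  intro x hx
  have hx' : x ∈ Subgroup.closure {x : R | x ^ p = 1} := by
    refine Subgroup.closure_mono ?_ hx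
    exact fun y hy => hy.2
  by_cases hc : IsCyclic R
  · letI : CommGroup R := IsCyclic.commGroup
    clear hx
    induction hx' using Subgroup.closure_induction with
    | mem x hx => exact hx
    | one => exact one_pow _
    | inv x _ hx => rw [inv_pow, hx, inv_one]
    | mul x y _ _ hx hy => rw [mul_pow, hx, hy, one_mul]
  · obtain ⟨A, hAn, hA, hAc⟩ := Cfsg.Agent.S0126.result (by omega) hR hc
    haveI := hAn
    exact omega_rank_two hR hp3 hA hAc hrk hx'

theorem smallOmega_quotient_prime {R : Type*} [Group R] [Finite R] (hR : IsPGroup p R) (hp3 : 3 < p)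
    (h : SmallOmega p R) (T : Subgroup R) [T.Normal] (hT : Nat.card T = p) : SmallOmega p (R ⧸ T) := by
  have hTc := le_center_of_card_le hR inferInstance hT.le
  have key : ∀ W : Subgroup (R ⧸ T), (∀ x ∈ W, x ^ p = 1) → Nat.card W ≤ p ^ 2 := by
    intro W hW
    by_contra hgt
    obtain ⟨m, hm⟩ := IsPGroup.iff_card.1 ((hR.to_quotient T).to_subgroup W)
    rw [hm, Nat.pow_le_pow_iff_right hp.out.one_lt] at hgt
    obtain ⟨W₁, -, -, hW₁⟩ := exists_normal_card ((hR.to_quotient T).to_subgroup W) (N := ⊤) inferInstance 3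
      (by rw [Subgroup.card_top, hm]; exact Nat.pow_le_pow_right hp.out.pos (by omega))
    set W₂ := W₁.map W.subtype with hW₂
    set U := W₂.comap (QuotientGroup.mk' T) with hU
    have hTU : T ≤ U := fun t ht => by
      show QuotientGroup.mk' T t ∈ W₂
      rw [show QuotientGroup.mk' T t = 1 from (QuotientGroup.eq_one_iff t).2 ht]; exact one_mem _
    have hUc : Nat.card U = p ^ 4 := by
      rw [← CfsgLib.Offender.card_mul_relIndex_of_le hTU, hT]
      rw [show T.relIndex U = (QuotientGroup.mk' T).ker.relIndex U by rw [QuotientGroup.ker_mk'],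
        Subgroup.relIndex_ker, hU, Subgroup.map_comap_eq_self_of_surjective (QuotientGroup.mk'_surjective T), hW₂,
        Subgroup.card_map_of_injective W.subtype_injective, hW₁]
      ring
    have hcl : SmallClass p U := smallClass_of_card hp3 (hR.to_subgroup U) hUc.le
    have hpT : ∀ x : U, (x : R) ^ p ∈ T := fun x => by
      refine (QuotientGroup.eq_one_iff _).1 ?_
      obtain ⟨w, -, hw⟩ := x.2
      show QuotientGroup.mk' T ((x : R) ^ p) = 1
      rw [map_pow, ← hw]
      exact hW _ w.2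
    have hcp : ∀ x y : U, ⁅y, x⁆ ^ p = 1 := by
      intro x y
      set c := ⁅y, x⁆ with hc
      have hd : ⁅x, c⁆ ∈ Subgroup.center U := hcl.three x y x
      have hxz : ∀ g : U, Commute (x ^ p) g := fun g => Subtype.ext
        (Subgroup.mem_center_iff.1 (hTc (hpT x)) g).symm
      have hdp : ⁅x, c⁆ ^ p = 1 := by
        have e : ∀ k : ℕ, x ^ k * c * (x ^ k)⁻¹ = ⁅x, c⁆ ^ k * c := by
          intro k
          induction k with
          | zero => simp
          | succ k ih =>
            calc x ^ (k + 1) * c * (x ^ (k + 1))⁻¹ = x * (x ^ k * c * (x ^ k)⁻¹) * x⁻¹ := by rw [pow_succ']; group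
              _ = x * ⁅x, c⁆ ^ k * x⁻¹ * (x * c * x⁻¹) := by rw [ih]; group
              _ = ⁅x, c⁆ ^ k * (x * c * x⁻¹) := by
                rw [Subgroup.mem_center_iff.1 (pow_mem hd k) x, mul_inv_cancel_right]
              _ = ⁅x, c⁆ ^ k * (⁅x, c⁆ * c) := by rw [commutatorElement_def x c]; group
              _ = _ := by rw [← mul_assoc, ← pow_succ]
        have := e p
        rw [(hxz c).eq, mul_inv_cancel_right] at this
        exact mul_eq_right.1 this.symm
      obtain ⟨k, hk⟩ := CfsgLib.PGroup.dvd_choose_two (p := p) hcl.odd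
      have h1 : (c * x) ^ p = c ^ p * x ^ p * ⁅x, c⁆ ^ p.choose 2 := CfsgLib.PGroup.mul_pow_central hd p
      rw [hk, pow_mul, hdp, one_pow, mul_one, show c * x = y * x * y⁻¹ by simp only [hc, commutatorElement_def]; group,
        conj_pow, ← (hxz y).eq, mul_inv_cancel_right] at h1
      exact mul_eq_right.1 h1.symm
    let φ : U →* T := MonoidHom.mk' (fun x => ⟨(x : R) ^ p, hpT x⟩) fun x y => Subtype.ext
      (show ((x : R) * y) ^ p = (x : R) ^ p * (y : R) ^ p from congrArg Subtype.val (hcl.pow_p x y (hcp x y)))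
    have hk := h.card_le (W := φ.ker.map U.subtype) (by
      rintro _ ⟨x, hx, rfl⟩
      exact congrArg Subtype.val (MonoidHom.mem_ker.1 hx))
    rw [Subgroup.card_map_of_injective U.subtype_injective] at hk
    have h2 := Subgroup.card_mul_index φ.ker
    rw [Subgroup.index_ker, hUc] at h2
    have h3 : Nat.card φ.range ≤ p := (Subgroup.card_le_card_group _).trans_eq hT
    have h4 := Nat.mul_le_mul hk h3
    rw [h2, ← pow_succ, Nat.pow_le_pow_iff_right hp.out.one_lt] at h4
    omega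
  exact key _ (exists_exponent_subgroup (hR.to_quotient T) hp3 fun E hE => key E hE.2)

omit hp in
theorem SmallOmega.of_equiv {R S : Type*} [Group R] [Group S] [Finite R] (e : R ≃* S) (h : SmallOmega p R) :
    SmallOmega p S := by
  refine le_trans (le_of_eq ?_) h
  suffices he : (Cfsg.omegaOne p (⊤ : Subgroup R)).map e.toMonoidHom = Cfsg.omegaOne p (⊤ : Subgroup S) by
    rw [← he, Subgroup.card_map_of_injective (f := e.toMonoidHom) e.injective]
  rw [Cfsg.omegaOne, Cfsg.omegaOne, MonoidHom.map_closure]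
  refine congrArg Subgroup.closure (Set.ext fun y => ⟨?_, fun hy => ?_⟩)
  · rintro ⟨x, hx, rfl⟩
    exact ⟨Subgroup.mem_top _, by rw [← map_pow, hx.2, map_one]⟩
  · exact ⟨e.symm y, ⟨Subgroup.mem_top _, by rw [← map_pow, hy.2, map_one]⟩, e.apply_symm_apply y⟩

/-- Quotients keep `|Ω₁| ≤ p²`. -/
theorem smallOmega_quotient (hp3 : 3 < p) : ∀ (R : Type u) [Group R] [Finite R], IsPGroup p R → SmallOmega p R →
    ∀ (T : Subgroup R) [T.Normal], SmallOmega p (R ⧸ T) := by
  suffices key : ∀ (n : ℕ) (R : Type u) [Group R] [Finite R], Nat.card R = n → IsPGroup p R → SmallOmega p R →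
      ∀ (T : Subgroup R) [T.Normal], SmallOmega p (R ⧸ T) from fun R _ _ => key _ R rfl
  intro n
  induction n using Nat.strong_induction_on with
  | _ n ih =>
  intro R _ _ hn hR h T _
  by_cases hT : T = ⊥
  · subst hT
    exact h.of_equiv (QuotientGroup.quotientBot).symm
  obtain ⟨Z, hZn, hZT, hZc⟩ := exists_normal_card hR (‹T.Normal›) 1 (by
    obtain ⟨k, hk⟩ := IsPGroup.iff_card.1 (hR.to_subgroup T)
    rw [hk]
    refine Nat.pow_le_pow_right hp.out.pos (Nat.one_le_iff_ne_zero.2 fun h0 => hT (Subgroup.card_eq_one.1 ?_))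
    rw [hk, h0, pow_zero])
  rw [pow_one] at hZc
  haveI := hZn
  have h1 := smallOmega_quotient_prime hR hp3 h Z hZc
  haveI : (T.map (QuotientGroup.mk' Z)).Normal := Subgroup.Normal.map inferInstance _ (QuotientGroup.mk'_surjective Z)
  refine (ih (Nat.card (R ⧸ Z)) ?_ (R ⧸ Z) rfl (hR.to_quotient Z) h1 (T.map (QuotientGroup.mk' Z))).of_equiv
    (QuotientGroup.quotientQuotientEquivQuotient Z T hZT)
  rw [← hn, Subgroup.card_eq_card_quotient_mul_card_subgroup Z, hZc]
  exact lt_mul_of_one_lt_right Nat.card_pos hp.out.one_lt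

omit hp in
theorem frattini_quotient_pow {R : Type*} [Group R] [Finite R] [Fact p.Prime] (hR : IsPGroup p R)
    (x : R ⧸ frattini R) : x ^ p = 1 := by
  obtain ⟨y, rfl⟩ := QuotientGroup.mk'_surjective (frattini R) x
  rw [← map_pow]
  exact (QuotientGroup.eq_one_iff _).2 (CfsgLib.PGroup.pow_mem_frattini hR y)

theorem metacyclic_small_derived {R : Type u} [Group R] [Finite R] (hR : IsPGroup p R) (hp3 : 3 < p)
    (h : SmallOmega p R) (hd : Nat.card ↥(commutator R) ≤ p) : Cfsg.IsMetacyclic R := by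
  classical
  by_cases hcy : IsCyclic R
  · haveI : Subsingleton (R ⧸ (⊤ : Subgroup R)) := QuotientGroup.subsingleton_quotient_top
    exact ⟨⊤, inferInstance, (Subgroup.topEquiv (G := R)).isCyclic.2 hcy, inferInstance⟩
  have hZ : commutator R ≤ Subgroup.center R := le_center_of_card_le hR inferInstance hd
  have hcp : ∀ x y : R, ⁅y, x⁆ ^ p = 1 := fun x y => by
    have hm : ⁅y, x⁆ ∈ commutator R := Subgroup.commutator_mem_commutator (Subgroup.mem_top y) (Subgroup.mem_top x)
    obtain ⟨k, hk⟩ := IsPGroup.iff_card.1 (hR.to_subgroup (commutator R))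
    have hk1 : k ≤ 1 := by
      rw [hk] at hd
      exact (Nat.pow_le_pow_iff_right hp.out.one_lt).1 (hd.trans_eq (pow_one p).symm)
    refine orderOf_dvd_iff_pow_eq_one.1 ((Subgroup.orderOf_dvd_natCard _ hm).trans ?_)
    rw [hk]
    exact dvd_trans (pow_dvd_pow p hk1) (dvd_of_eq (pow_one p))
  have hcl : SmallClass p R := Or.inl ⟨by omega, CfsgLib.PGroup.class_two_of_commutator_le_center hZ⟩
  let φ : R →* R := MonoidHom.mk' (fun x => x ^ p) fun x y => hcl.pow_p x y (hcp x y)
  set F := frattini R with hF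
  have hFc : Nat.card (R ⧸ F) ≤ p ^ 2 := by
    have h1 := smallOmega_quotient hp3 R hR h F
    have h2 := h1.card_le (W := ⊤) fun x _ => frattini_quotient_pow hR x
    rwa [Subgroup.card_top] at h2
  have hker : Nat.card φ.ker ≤ p ^ 2 := h.card_le fun x hx => MonoidHom.mem_ker.1 hx
  have hrange : φ.range ≤ F := by
    rintro _ ⟨x, rfl⟩; exact CfsgLib.PGroup.pow_mem_frattini hR x
  have hFc' : Nat.card (R ⧸ F) = p ^ 2 := by
    refine le_antisymm hFc ?_
    by_contra hlt
    apply hcy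
    obtain ⟨k, hk⟩ := IsPGroup.iff_card.1 (hR.to_quotient F)
    rw [hk, Nat.pow_le_pow_iff_right hp.out.one_lt] at hlt
    haveI : IsCyclic (R ⧸ F) := by
      have hk2 : k ≤ 1 := by omega
      interval_cases k
      · haveI : Subsingleton (R ⧸ F) := (Nat.card_eq_one_iff_unique.1 (by simpa using hk)).1
        infer_instance
      · exact isCyclic_of_prime_card (hk.trans (pow_one p))
    obtain ⟨q, hq⟩ := IsCyclic.exists_generator (α := R ⧸ F)
    obtain ⟨g, rfl⟩ := QuotientGroup.mk'_surjective F q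
    have htop : Subgroup.zpowers g = ⊤ := frattini_nongenerating (eq_top_iff.2 fun r _ => by
      obtain ⟨i, hi⟩ := Subgroup.mem_zpowers_iff.1 (hq (QuotientGroup.mk' F r))
      rw [← map_zpow] at hi
      have hm : (g ^ i)⁻¹ * r ∈ F := QuotientGroup.eq.1 hi
      rw [show r = g ^ i * ((g ^ i)⁻¹ * r) by group]
      exact mul_mem (Subgroup.mem_sup_left (Subgroup.zpow_mem_zpowers g i)) (Subgroup.mem_sup_right hm))
    exact ⟨⟨g, fun r => Subgroup.mem_zpowers_iff.1 (htop.ge (Subgroup.mem_top r))⟩⟩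
  have hFeq : φ.range = F := by
    refine Subgroup.eq_of_le_of_card_ge hrange ?_
    have h1 := Subgroup.card_mul_index φ.ker
    rw [Subgroup.index_ker, Subgroup.card_eq_card_quotient_mul_card_subgroup F, hFc'] at h1
    refine Nat.le_of_mul_le_mul_left ?_ (pow_pos hp.out.pos 2)
    rw [← h1]
    exact Nat.mul_le_mul_right _ hker
  obtain ⟨c, hc⟩ : ∃ c, commutator R ≤ Subgroup.zpowers c := by
    by_cases h1 : commutator R = ⊥
    · exact ⟨1, h1 ▸ bot_le⟩
    · haveI := (commutator R).nontrivial_iff_ne_bot.2 h1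
      obtain ⟨⟨c, hc⟩, hc1⟩ := exists_ne (1 : ↥(commutator R))
      refine ⟨c, (Subgroup.eq_of_le_of_card_ge (Subgroup.zpowers_le.2 hc) ?_).ge⟩
      refine hd.trans ?_
      rw [Nat.card_zpowers]
      exact Nat.le_of_dvd (orderOf_pos c) (hR.dvd_orderOf fun e => hc1 (Subtype.ext e))
  obtain ⟨x, hx, hmax⟩ := Set.exists_max_image {x : R | commutator R ≤ Subgroup.zpowers x} orderOf (Set.toFinite _)
    ⟨c, hc⟩
  have hxF : x ∉ F := by
    intro hxF
    obtain ⟨y, hy⟩ := hFeq.ge hxF
    change y ^ p = x at hy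
    have hy1 : y ≠ 1 := by
      intro e
      apply hcy
      haveI : Subsingleton R := by
        refine ⟨fun a b => ?_⟩
        have hall : ∀ z : R, z = 1 := fun z => by
          have hzS : commutator R ≤ Subgroup.zpowers z := hx.trans (by rw [← hy, e, one_pow, Subgroup.zpowers_one_eq_bot]; exact bot_le)
          have := hmax z hzS
          rw [← hy, e, one_pow, orderOf_one] at this
          exact orderOf_eq_one_iff.1 (le_antisymm this (orderOf_pos z))
        rw [hall a, hall b]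
      infer_instance
    have hle := hmax y (hx.trans (Subgroup.zpowers_le.2 (hy ▸ pow_mem (Subgroup.mem_zpowers y) p)))
    have hd' : p ∣ orderOf y := hR.dvd_orderOf hy1
    rw [← hy, orderOf_pow, Nat.gcd_eq_right hd'] at hle
    exact absurd hle (not_le.2 (Nat.div_lt_self (orderOf_pos y) hp.out.one_lt))
  haveI hxn : (Subgroup.zpowers x).Normal := ⟨fun z hz g => by
    rw [show g * z * g⁻¹ = ⁅g, z⁆ * z by rw [commutatorElement_def]; group]
    exact mul_mem (hx (Subgroup.commutator_mem_commutator (Subgroup.mem_top g) (Subgroup.mem_top z))) hz⟩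
  refine ⟨Subgroup.zpowers x, hxn, inferInstance, ?_⟩
  -- a second generator
  set π := QuotientGroup.mk' F
  have hπx : orderOf (π x) = p := orderOf_eq_prime (frattini_quotient_pow hR _)
    fun e => hxF ((QuotientGroup.eq_one_iff x).1 e)
  obtain ⟨y', hy'⟩ := SetLike.exists_of_lt (show Subgroup.zpowers (π x) < ⊤ from lt_top_iff_ne_top.2 fun e => by
    have := congrArg (fun Z : Subgroup (R ⧸ F) => Nat.card Z) e
    simp only [Nat.card_zpowers, hπx, Subgroup.card_top, hFc'] at this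
    nlinarith [hp.out.two_le])
  obtain ⟨y, rfl⟩ := QuotientGroup.mk'_surjective F y'
  haveI : IsMulCommutative (R ⧸ F) := IsPGroup.isMulCommutative_of_card_eq_prime_sq hFc'
  have hxy : Subgroup.zpowers (π x) ⊔ Subgroup.zpowers (π y) = ⊤ := by
    refine Subgroup.eq_top_of_card_eq _ (le_antisymm (Subgroup.card_le_card_group _) ?_)
    haveI : (Subgroup.zpowers (π x)).Normal := Subgroup.normal_of_isMulCommutative _
    rw [card_sup_zpowers (p := p) hy'.2 (by rw [frattini_quotient_pow hR]; exact one_mem _), Nat.card_zpowers, hπx,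
      hFc', pow_two]
  have htop : Subgroup.zpowers x ⊔ Subgroup.zpowers y = ⊤ := frattini_nongenerating (eq_top_iff.2 fun r _ => by
    have h1 : π r ∈ (Subgroup.zpowers x ⊔ Subgroup.zpowers y).map π := by
      rw [Subgroup.map_sup, MonoidHom.map_zpowers, MonoidHom.map_zpowers, hxy]; trivial
    obtain ⟨z, hz, hzr⟩ := h1
    rw [show r = z * (z⁻¹ * r) by group]
    exact mul_mem (Subgroup.mem_sup_left hz) (Subgroup.mem_sup_right (QuotientGroup.eq.1 hzr)))
  refine ⟨⟨QuotientGroup.mk' _ y, fun q => ?_⟩⟩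
  obtain ⟨r, rfl⟩ := QuotientGroup.mk'_surjective (Subgroup.zpowers x) q
  obtain ⟨a, ha, b, hb, rfl⟩ := Subgroup.mem_sup_of_normal_left.1 (htop.ge (Subgroup.mem_top r))
  obtain ⟨i, rfl⟩ := Subgroup.mem_zpowers_iff.1 hb
  refine ⟨i, ?_⟩
  rw [map_mul, map_zpow, show QuotientGroup.mk' _ a = 1 from (QuotientGroup.eq_one_iff a).2 ha, one_mul]

/-- Huppert's criterion. -/
theorem metacyclic_of_smallOmega (hp3 : 3 < p) : ∀ (R : Type u) [Group R] [Finite R], IsPGroup p R →
    SmallOmega p R → Cfsg.IsMetacyclic R := by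
  suffices key : ∀ (n : ℕ) (R : Type u) [Group R] [Finite R], Nat.card R = n → IsPGroup p R →
      SmallOmega p R → Cfsg.IsMetacyclic R from fun R _ _ => key _ R rfl
  intro n
  induction n using Nat.strong_induction_on with
  | _ n ih =>
  intro R _ _ hn hR h
  by_cases hd : Nat.card ↥(commutator R) ≤ p
  · exact metacyclic_small_derived hR hp3 h hd
  obtain ⟨T, hTn, hTd, hTc⟩ := exists_normal_card hR (inferInstance : (commutator R).Normal) 1
    (by rw [pow_one]; omega)
  rw [pow_one] at hTc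
  haveI := hTn
  have hTZ := le_center_of_card_le hR hTn hTc.le
  obtain ⟨N', hN', hNc, hQc⟩ := ih (Nat.card (R ⧸ T)) (by
    rw [← hn, Subgroup.card_eq_card_quotient_mul_card_subgroup T, hTc]
    exact lt_mul_of_one_lt_right Nat.card_pos hp.out.one_lt) (R ⧸ T) rfl (hR.to_quotient T)
    (smallOmega_quotient hp3 R hR h T)
  set π := QuotientGroup.mk' T
  set N := N'.comap π with hN
  haveI hNn : N.Normal := hN'.comap π
  by_cases hNcy : IsCyclic N
  · refine ⟨N, hNn, hNcy, ?_⟩
    haveI := hQc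
    refine isCyclic_of_injective (QuotientGroup.map N N' π le_rfl) ((injective_iff_map_eq_one _).2 fun q hq => ?_)
    obtain ⟨r, rfl⟩ := QuotientGroup.mk'_surjective N q
    exact (QuotientGroup.eq_one_iff r).2 ((QuotientGroup.eq_one_iff (π r)).1 hq)
  exfalso
  apply hd
  obtain ⟨⟨a', ha'⟩, hagen⟩ := hNc.exists_generator
  obtain ⟨a, rfl⟩ := QuotientGroup.mk'_surjective T a'
  obtain ⟨b', hbgen⟩ := hQc.exists_generator
  obtain ⟨b'', rfl⟩ := QuotientGroup.mk'_surjective N' b'
  obtain ⟨b, rfl⟩ := QuotientGroup.mk'_surjective T b''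
  have hTz : ∀ t ∈ T, ∀ g : R, Commute t g := fun t ht g => (Subgroup.mem_center_iff.1 (hTZ ht) g).symm
  have hNdec : ∀ z ∈ N, ∃ t ∈ T, ∃ i : ℤ, z = t * a ^ i := by
    intro z hz
    obtain ⟨i, hi⟩ := Subgroup.mem_zpowers_iff.1 (hagen ⟨π z, hz⟩)
    have hi' : π a ^ i = π z := congrArg Subtype.val hi
    rw [← map_zpow] at hi'
    refine ⟨z * (a ^ i)⁻¹, (QuotientGroup.eq_one_iff _).1 ?_, i, by group⟩
    show π (z * (a ^ i)⁻¹) = 1
    rw [map_mul, map_inv, hi', mul_inv_cancel]
  have haN : a ∈ N := ha'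
  obtain ⟨t, ht, k, hk⟩ := hNdec _ (hNn.conj_mem a haN b)
  set c := b * a * b⁻¹ * a⁻¹ with hc
  have hca : c = t * a ^ (k - 1) := by rw [hc, hk, zpow_sub_one]; group
  have hbc : b * c * b⁻¹ = c ^ k := by
    have hcomm : Commute t (a ^ (k - 1)) := hTz t ht _
    have htb : b * t * b⁻¹ = t := by rw [← (hTz t ht b).eq, mul_inv_cancel_right]
    calc b * c * b⁻¹ = b * t * b⁻¹ * (b * a * b⁻¹) ^ (k - 1) := by rw [hca, conj_zpow]; group
      _ = t * (t * a ^ k) ^ (k - 1) := by rw [htb, hk]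
      _ = t * (t ^ (k - 1) * a ^ (k * (k - 1))) := by rw [(hTz t ht _).mul_zpow, ← zpow_mul]
      _ = t ^ k * a ^ ((k - 1) * k) := by
        rw [← mul_assoc, show t * t ^ (k - 1) = t ^ k by rw [← zpow_one_add]; congr 1; ring, mul_comm k (k - 1)]
      _ = c ^ k := by rw [hca, hcomm.mul_zpow, ← zpow_mul]
  have hcN : c ∈ N := mul_mem (hNn.conj_mem a haN b) (inv_mem haN)
  have haC : ∀ z ∈ N, Commute a z := fun z hz => by
    obtain ⟨t', ht', i, rfl⟩ := hNdec z hz
    exact (hTz t' ht' a).symm.mul_right ((Commute.refl a).zpow_right i)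
  have hNab : ∀ y ∈ N, ∀ z ∈ N, Commute y z := fun y hy z hz => by
    obtain ⟨t', ht', i, rfl⟩ := hNdec y hy
    exact (hTz t' ht' z).mul_left ((haC z hz).zpow_left i)
  -- every element is `z b^j`
  have hdec : ∀ r : R, ∃ z ∈ N, ∃ j : ℤ, r = z * b ^ j := by
    intro r
    obtain ⟨j, hj⟩ := Subgroup.mem_zpowers_iff.1 (hbgen (QuotientGroup.mk' N' (π r)))
    rw [← map_zpow, ← map_zpow] at hj
    have hm : (π (b ^ j))⁻¹ * π r ∈ N' := QuotientGroup.eq.1 hj
    rw [← map_inv, ← map_mul] at hm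
    refine ⟨r * (b ^ j)⁻¹, ?_, j, by group⟩
    have := hNn.conj_mem _ (show (b ^ j)⁻¹ * r ∈ N from hm) (b ^ j)
    rwa [mul_inv_cancel_left] at this
  have hcn : (Subgroup.zpowers c).Normal := by
    have hb : b ∈ Subgroup.normalizer (Subgroup.zpowers c : Set R) := Subgroup.mem_normalizer_fintype fun z hz => by
      obtain ⟨i, rfl⟩ := Subgroup.mem_zpowers_iff.1 hz
      rw [← conj_zpow, hbc]
      exact zpow_mem (zpow_mem (Subgroup.mem_zpowers c) k) i
    refine Subgroup.normalizer_eq_top_iff.1 (eq_top_iff.2 fun r _ => ?_)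
    obtain ⟨z, hz, j, rfl⟩ := hdec r
    refine mul_mem (Subgroup.centralizer_le_normalizer _ (Subgroup.mem_centralizer_iff.2 fun y hy => ?_)) (zpow_mem hb j)
    obtain ⟨i, rfl⟩ := Subgroup.mem_zpowers_iff.1 hy
    exact ((hNab c hcN z hz).zpow_left i).eq
  haveI := hcn
  set ρ := QuotientGroup.mk' (Subgroup.zpowers c)
  have hρab : Commute (ρ b) (ρ a) := by
    refine commutatorElement_eq_one_iff_mul_comm.1 ?_
    rw [← map_commutatorElement]
    exact (QuotientGroup.eq_one_iff _).2 (by rw [commutatorElement_def]; exact Subgroup.mem_zpowers c)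
  have hρN : ∀ z ∈ N, Commute (ρ b) (ρ z) := fun z hz => by
    obtain ⟨t', ht', i, rfl⟩ := hNdec z hz
    rw [map_mul, map_zpow]
    exact ((hTz t' ht' b).symm.map ρ).mul_right (hρab.zpow_right i)
  have hder : commutator R ≤ Subgroup.zpowers c := by
    refine Subgroup.commutator_le.2 fun r _ s _ => (QuotientGroup.eq_one_iff _).1 ?_
    obtain ⟨z, hz, j, rfl⟩ := hdec r
    obtain ⟨w, hw, l, rfl⟩ := hdec s
    show ρ ⁅z * b ^ j, w * b ^ l⁆ = 1
    rw [map_commutatorElement, commutatorElement_eq_one_iff_mul_comm, map_mul, map_mul, map_zpow, map_zpow]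
    have c1 : Commute (ρ z) (ρ w) := (hNab z hz w hw).map ρ
    have c2 : Commute (ρ z) (ρ b ^ l) := ((hρN z hz).symm).zpow_right l
    have c3 : Commute (ρ b ^ j) (ρ w) := (hρN w hw).zpow_left j
    exact ((c1.mul_right c2).mul_left (c3.mul_right ((Commute.refl _).zpow_zpow j l))).eq
  refine (Subgroup.card_le_of_le hder).trans ?_
  rw [Nat.card_zpowers]
  by_contra hgt
  have hcp : c ^ p ≠ 1 := fun e => hgt (Nat.le_of_dvd hp.out.pos (orderOf_dvd_of_pow_eq_one e))
  apply hNcy
  have htp : t ^ p = 1 := orderOf_dvd_iff_pow_eq_one.1 (hTc ▸ Subgroup.orderOf_dvd_natCard T ht)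
  have hcpa : c ^ p ∈ Subgroup.zpowers a := by
    rw [hca, (hTz t ht _).mul_pow, htp, one_mul]
    exact pow_mem (Subgroup.zpow_mem_zpowers a _) p
  -- `T` lies in `⟨a⟩`
  obtain ⟨⟨t₀, ht₀⟩, ht₀1⟩ : ∃ x : T, x ≠ 1 :=
    haveI : Nontrivial T := Finite.one_lt_card_iff_nontrivial.1 (hTc ▸ hp.out.one_lt)
    exists_ne 1
  have ht₀1' : t₀ ≠ 1 := fun e => ht₀1 (Subtype.ext e)
  obtain ⟨m, hm⟩ := IsPGroup.iff_orderOf.1 hR (c ^ p)
  obtain ⟨m, rfl⟩ : ∃ l, m = l + 1 := ⟨m - 1, by
    have : m ≠ 0 := fun h0 => hcp (orderOf_eq_one_iff.1 (by rw [hm, h0, pow_zero]))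
    omega⟩
  set u := (c ^ p) ^ p ^ m with hu
  have hu1 : orderOf u = p := by
    rw [hu, orderOf_pow' _ (pow_ne_zero _ hp.out.ne_zero), hm, Nat.gcd_eq_right (pow_dvd_pow p m.le_succ), pow_succ,
      Nat.mul_div_cancel_left _ (pow_pos hp.out.pos m)]
  have ht₀c : (⟨t₀, hder (hTd ht₀)⟩ : Subgroup.zpowers c) ∈
      Subgroup.zpowers (⟨u, pow_mem (pow_mem (Subgroup.mem_zpowers c) p) _⟩ : Subgroup.zpowers c) := by
    rw [CfsgLib.RankOneP.zpowers_eq_of_orderOf_eq (a := (⟨u, pow_mem (pow_mem (Subgroup.mem_zpowers c) p) _⟩ : Subgroup.zpowers c))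
      (b := ⟨t₀, hder (hTd ht₀)⟩) (by
        rw [Subgroup.orderOf_mk, Subgroup.orderOf_mk, hu1, orderOf_eq_prime
          (orderOf_dvd_iff_pow_eq_one.1 (hTc ▸ Subgroup.orderOf_dvd_natCard T ht₀)) ht₀1'])]
    exact Subgroup.mem_zpowers _
  obtain ⟨i, hi⟩ := Subgroup.mem_zpowers_iff.1 ht₀c
  have hi' : u ^ i = t₀ := congrArg Subtype.val hi
  have hTa : T ≤ Subgroup.zpowers a := by
    have h1 : Subgroup.zpowers t₀ = T := Subgroup.eq_of_le_of_card_ge (Subgroup.zpowers_le.2 ht₀)
      (by rw [hTc, Nat.card_zpowers, orderOf_eq_prime (orderOf_dvd_iff_pow_eq_one.1 (hTc ▸ Subgroup.orderOf_dvd_natCard T ht₀)) ht₀1'])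
    rw [← h1, Subgroup.zpowers_le, ← hi']
    exact zpow_mem (pow_mem hcpa _) i
  have hNa : N = Subgroup.zpowers a := le_antisymm (fun z hz => by
    obtain ⟨t', ht', i, rfl⟩ := hNdec z hz
    exact mul_mem (hTa ht') (Subgroup.zpow_mem_zpowers a i)) (Subgroup.zpowers_le.2 haN)
  rw [hNa]
  infer_instance

end CfsgLib.PLocalBasics
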